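import Cfsg.Agent.H678.CCData
import Cfsg.Agent.H686.CharKit
import Cfsg.Agent.S0157

/-!
# The permutation characters of a split pair of type `G₂` and a CC-subgroup (helper453, for S2452, `³D₄(q)`)

* `exists_dec`: `⟨π₁,π₁⟩ = ⟨π₂,π₂⟩ = 4`, `⟨π₁,π₂⟩ = 3`, `⟨π_B,π_B⟩ = 12`, `⟨π_B,π_i⟩ = 6` force
  `π₁ = 1 + s₁ + r₁ + r₂`, `π₂ = 1 + s₂ + r₁ + r₂`, `π_B = 1 + St + s₁ + s₂ + 2 r₁ + 2 r₂`;
* `dec_main`: the values at an element of a CC-subgroup with automizer of order 4 on which these vanish.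
-/

set_option autoImplicit false

open scoped ComplexConjugate
open Cfsg Subgroup

namespace Cfsg.Agent.H453.TW

open Cfsg.Agent.Characters Cfsg.Agent.Characters.Core Cfsg.Agent.H678.CCExact Cfsg.Agent.H686.CharKit
  Cfsg.Agent.Characters.CCCounting
open Cfsg.Agent.S0157 (isCharacter_fixedBy avg_fixedBy card_orbits_of_pretransitive)

universe u

section comb

variable {ι : Type*} [Fintype ι] [DecidableEq ι]

/-- three ones -/
theorem ones {f : ι → ℕ} {i : ι} (hi : f i = 1) (h : ∑ k, f k ^ 2 = 4) :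
    ∃ T : Finset ι, i ∉ T ∧ T.card = 3 ∧ ∀ k, f k = if k ∈ insert i T then 1 else 0 := by
  obtain ⟨T, hT⟩ : ∃ T : Finset ι, T = (Finset.univ.filter fun k => f k ≠ 0 ∧ k ≠ i) := ⟨_, rfl⟩
  have hmem : ∀ k, k ∈ T ↔ f k ≠ 0 ∧ k ≠ i := fun k => by rw [hT]; simp
  have hiT : i ∉ T := fun h => ((hmem i).1 h).2 rfl
  have hsum : ∑ k ∈ T, f k ^ 2 = 3 := by
    have h1 : ∑ k, f k ^ 2 = ∑ k ∈ insert i T, f k ^ 2 := by
      symm
      apply Finset.sum_subset (Finset.subset_univ _)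
      intro k _ hk
      rw [Finset.mem_insert, hmem] at hk
      push Not at hk
      by_contra hne
      have h0 : f k ≠ 0 := fun h0 => hne (by rw [h0]; ring)
      exact hk.1 (hk.2 h0)
    rw [Finset.sum_insert hiT, hi, h] at h1
    omega
  have hone : ∀ k ∈ T, f k = 1 := fun k hk => by
    have h0 := ((hmem k).1 hk).1
    have h1 : f k ^ 2 ≤ 3 := by
      rw [← hsum]
      exact Finset.single_le_sum (f := fun k => f k ^ 2) (fun _ _ => Nat.zero_le _) hk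
    have h2 : f k < 2 := by nlinarith
    omega
  refine ⟨T, hiT, ?_, fun k => ?_⟩
  · rw [Finset.sum_congr rfl (fun k hk => by rw [hone k hk])] at hsum
    simpa using hsum
  · by_cases hk : k ∈ insert i T
    · rw [if_pos hk]
      rcases Finset.mem_insert.1 hk with h1 | h1
      · rw [h1, hi]
      · exact hone k h1
    · rw [if_neg hk]
      rw [Finset.mem_insert, hmem] at hk
      push Not at hk
      by_contra h0
      exact hk.1 (hk.2 h0)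

omit [Fintype ι] in
/-- one one -/
theorem one_sq {f : ι → ℕ} {V : Finset ι} (h : ∑ k ∈ V, f k ^ 2 = 1) :
    ∃ j ∈ V, f j = 1 ∧ ∀ k ∈ V, k ≠ j → f k = 0 := by
  obtain ⟨j, hj, hj0⟩ : ∃ j ∈ V, f j ≠ 0 := by
    by_contra hc
    push Not at hc
    rw [Finset.sum_eq_zero (fun k hk => by rw [hc k hk]; rfl)] at h
    omega
  have h1 := Finset.add_sum_erase V (fun k => f k ^ 2) hj
  rw [h] at h1
  have h2 : 0 < f j ^ 2 := by positivity
  have h3 : f j ^ 2 = 1 := by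
    omega
  have h4 : f j = 1 := by
    have h5 : f j < 2 := by nlinarith
    omega
  refine ⟨j, hj, h4, fun k hk hkj => ?_⟩
  have h6 : ∑ k ∈ V.erase j, f k ^ 2 = 0 := by
    omega
  have h7 := (Finset.sum_eq_zero_iff.1 h6) k (Finset.mem_erase.2 ⟨hkj, hk⟩)
  exact pow_eq_zero_iff (by norm_num) |>.1 h7

theorem num {a b c d R : ℕ} (b1 : 1 + (a + (c + d)) = 6) (b2 : 1 + (b + (c + d)) = 6)
    (bb : 1 ^ 2 + (a ^ 2 + (b ^ 2 + (c ^ 2 + d ^ 2))) + R = 12) : a = 1 ∧ b = 1 ∧ c = 2 ∧ d = 2 ∧ R = 1 := by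
  have hab : b = a := by omega
  subst hab
  have h1 : b ≤ 2 := by nlinarith
  have h2 : c ≤ 3 := by nlinarith
  have h3 : d = 5 - b - c := by omega
  subst h3
  interval_cases b <;> interval_cases c <;> simp at bb b1 ⊢ <;> omega

/-- **The multiplicities.** -/
theorem comb {I : ι} {m₁ m₂ mB : ι → ℕ} (i1 : m₁ I = 1) (i2 : m₂ I = 1) (iB : mB I = 1)
    (h11 : ∑ k, m₁ k ^ 2 = 4) (h22 : ∑ k, m₂ k ^ 2 = 4) (h12 : ∑ k, m₁ k * m₂ k = 3)
    (hBB : ∑ k, mB k ^ 2 = 12) (hB1 : ∑ k, mB k * m₁ k = 6) (hB2 : ∑ k, mB k * m₂ k = 6) :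
    ∃ St s₁ s₂ r₁ r₂ : ι, [I, St, s₁, s₂, r₁, r₂].Nodup ∧
      (∀ k, m₁ k = if k ∈ ({I, s₁, r₁, r₂} : Finset ι) then 1 else 0) ∧
      (∀ k, m₂ k = if k ∈ ({I, s₂, r₁, r₂} : Finset ι) then 1 else 0) ∧
      mB St = 1 ∧ mB s₁ = 1 ∧ mB s₂ = 1 ∧ mB r₁ = 2 ∧ mB r₂ = 2 ∧
      ∀ k, k ∉ ({I, St, s₁, s₂, r₁, r₂} : Finset ι) → mB k = 0 := by
  obtain ⟨T₁, hI1, c1, e1⟩ := ones i1 h11
  obtain ⟨T₂, hI2, c2, e2⟩ := ones i2 h22
  have c12 : (T₁ ∩ T₂).card = 2 := by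
    have h1 : ∀ k, m₁ k * m₂ k = if k ∈ insert I (T₁ ∩ T₂) then 1 else 0 := fun k => by
      rw [e1, e2]
      by_cases hk : k = I
      · simp [hk]
      · simp only [Finset.mem_insert, hk, false_or, Finset.mem_inter]
        by_cases ha : k ∈ T₁ <;> by_cases hb : k ∈ T₂ <;> simp [ha, hb]
    rw [Finset.sum_congr rfl (fun k _ => h1 k), Finset.sum_ite_mem, Finset.univ_inter, Finset.sum_const, smul_eq_mul,
      mul_one, Finset.card_insert_of_notMem (fun h => hI1 (Finset.mem_of_mem_inter_left h))] at h12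
    omega
  obtain ⟨r₁, r₂, hr, e12⟩ := Finset.card_eq_two.1 c12
  have d1 : (T₁ \ T₂).card = 1 := by
    have := Finset.card_sdiff_add_card_inter T₁ T₂
    omega
  have d2 : (T₂ \ T₁).card = 1 := by
    have := Finset.card_sdiff_add_card_inter T₂ T₁
    rw [Finset.inter_comm] at this
    omega
  obtain ⟨s₁, hs1⟩ := Finset.card_eq_one.1 d1
  obtain ⟨s₂, hs2⟩ := Finset.card_eq_one.1 d2
  have ms1 : s₁ ∈ T₁ ∧ s₁ ∉ T₂ := Finset.mem_sdiff.1 (by rw [hs1]; simp)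
  have ms2 : s₂ ∈ T₂ ∧ s₂ ∉ T₁ := Finset.mem_sdiff.1 (by rw [hs2]; simp)
  have mr1 : r₁ ∈ T₁ ∧ r₁ ∈ T₂ := Finset.mem_inter.1 (by rw [e12]; simp)
  have mr2 : r₂ ∈ T₁ ∧ r₂ ∈ T₂ := Finset.mem_inter.1 (by rw [e12]; simp)
  have t1 : T₁ = {s₁, r₁, r₂} := by
    ext k
    constructor
    · intro hk
      by_cases hk2 : k ∈ T₂
      · have : k ∈ T₁ ∩ T₂ := Finset.mem_inter.2 ⟨hk, hk2⟩
        rw [e12] at this
        simp only [Finset.mem_insert, Finset.mem_singleton] at this ⊢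
        tauto
      · have : k ∈ T₁ \ T₂ := Finset.mem_sdiff.2 ⟨hk, hk2⟩
        rw [hs1, Finset.mem_singleton] at this
        simp [this]
    · intro hk
      simp only [Finset.mem_insert, Finset.mem_singleton] at hk
      rcases hk with h | h | h <;> rw [h]
      · exact ms1.1
      · exact mr1.1
      · exact mr2.1
  have t2 : T₂ = {s₂, r₁, r₂} := by
    ext k
    constructor
    · intro hk
      by_cases hk2 : k ∈ T₁
      · have : k ∈ T₁ ∩ T₂ := Finset.mem_inter.2 ⟨hk2, hk⟩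
        rw [e12] at this
        simp only [Finset.mem_insert, Finset.mem_singleton] at this ⊢
        tauto
      · have : k ∈ T₂ \ T₁ := Finset.mem_sdiff.2 ⟨hk, hk2⟩
        rw [hs2, Finset.mem_singleton] at this
        simp [this]
    · intro hk
      simp only [Finset.mem_insert, Finset.mem_singleton] at hk
      rcases hk with h | h | h <;> rw [h]
      · exact ms2.1
      · exact mr1.2
      · exact mr2.2
  have hs12 : s₁ ≠ s₂ := fun h => ms2.2 (h ▸ ms1.1)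
  have hs1r1 : s₁ ≠ r₁ := fun h => ms1.2 (h ▸ mr1.2)
  have hs1r2 : s₁ ≠ r₂ := fun h => ms1.2 (h ▸ mr2.2)
  have hs2r1 : s₂ ≠ r₁ := fun h => ms2.2 (h ▸ mr1.1)
  have hs2r2 : s₂ ≠ r₂ := fun h => ms2.2 (h ▸ mr2.1)
  have hIs1 : I ≠ s₁ := fun h => hI1 (h ▸ ms1.1)
  have hIs2 : I ≠ s₂ := fun h => hI2 (h ▸ ms2.1)
  have hIr1 : I ≠ r₁ := fun h => hI1 (h ▸ mr1.1)
  have hIr2 : I ≠ r₂ := fun h => hI1 (h ▸ mr2.1)
  -- the multiplicities in `π_B`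
  have b1 : mB I + (mB s₁ + (mB r₁ + mB r₂)) = 6 := by
    rw [← hB1, Finset.sum_congr rfl (fun k _ => by rw [e1 k, mul_ite, mul_one, mul_zero]), Finset.sum_ite_mem,
      Finset.univ_inter, t1, Finset.sum_insert, Finset.sum_insert, Finset.sum_pair hr]
    · simp [hs1r1, hs1r2]
    · simp [hIs1, hIr1, hIr2]
  have b2 : mB I + (mB s₂ + (mB r₁ + mB r₂)) = 6 := by
    rw [← hB2, Finset.sum_congr rfl (fun k _ => by rw [e2 k, mul_ite, mul_one, mul_zero]), Finset.sum_ite_mem,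
      Finset.univ_inter, t2, Finset.sum_insert, Finset.sum_insert, Finset.sum_pair hr]
    · simp [hs2r1, hs2r2]
    · simp [hIs2, hIr1, hIr2]
  obtain ⟨U, hU⟩ : ∃ U : Finset ι, U = {I, s₁, s₂, r₁, r₂} := ⟨_, rfl⟩
  have bb : mB I ^ 2 + (mB s₁ ^ 2 + (mB s₂ ^ 2 + (mB r₁ ^ 2 + mB r₂ ^ 2))) + ∑ k ∈ Uᶜ, mB k ^ 2 = 12 := by
    rw [← hBB, ← Finset.sum_add_sum_compl U, hU, Finset.sum_insert, Finset.sum_insert, Finset.sum_insert,
      Finset.sum_pair hr]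
    · simp [hs2r1, hs2r2]
    · simp [hs12, hs1r1, hs1r2]
    · simp [hIs1, hIs2, hIr1, hIr2]
  rw [iB] at b1 b2 bb
  obtain ⟨R, hR⟩ : ∃ R, R = ∑ k ∈ Uᶜ, mB k ^ 2 := ⟨_, rfl⟩
  rw [← hR] at bb
  obtain ⟨k1, k2, k3, k4, k5⟩ := num b1 b2 bb
  obtain ⟨St, hSt, hSt1, hrest⟩ := one_sq (hR ▸ k5 : ∑ k ∈ Uᶜ, mB k ^ 2 = 1)
  have hStU : St ∉ U := Finset.mem_compl.1 hSt
  rw [hU] at hStU
  simp only [Finset.mem_insert, Finset.mem_singleton, not_or] at hStU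
  obtain ⟨n1, n2, n3, n4, n5⟩ := hStU
  refine ⟨St, s₁, s₂, r₁, r₂, ?_, ?_, ?_, hSt1, k1, k2, k3, k4, ?_⟩
  · simp [n2, n3, n4, n5, hIs1, hIs2, hIr1, hIr2, hs12, hs1r1, hs1r2, hs2r1, hs2r2, hr, Ne.symm n1]
  · intro k
    rw [e1, t1]
  · intro k
    rw [e2, t2]
  · intro k hk
    simp only [Finset.mem_insert, Finset.mem_singleton, not_or] at hk
    apply hrest k _ hk.2.1
    rw [Finset.mem_compl, hU]
    simp only [Finset.mem_insert, Finset.mem_singleton, not_or]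
    exact ⟨hk.1, hk.2.2⟩

end comb

section perm

variable {G : Type u} [Group G]

/-- the permutation character of `G` on the cosets of `H` -/
noncomputable def pc (H : Subgroup G) : G → ℂ := fun g => (Nat.card (MulAction.fixedBy (G ⧸ H) g) : ℂ)

theorem pc_isCharacter [Finite G] (H : Subgroup G) : IsCharacter G (pc H) := isCharacter_fixedBy (G := G) (G ⧸ H)

theorem pc_zero {H : Subgroup G} {a : G} (h : ∀ g : G, g⁻¹ * a * g ∉ H) : pc H a = 0 := by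
  unfold pc
  have h1 : IsEmpty (MulAction.fixedBy (G ⧸ H) a) := by
    refine ⟨fun ⟨q, hq⟩ => ?_⟩
    induction q using QuotientGroup.induction_on with
    | H g =>
      have h1 : ((a * g : G) : G ⧸ H) = (g : G ⧸ H) := hq
      have h2 := QuotientGroup.eq.1 h1.symm
      apply h g
      rwa [← mul_assoc] at h2
  simp

theorem pc_one (H : Subgroup G) : pc H 1 = (H.index : ℂ) := by
  rw [pc, MulAction.fixedBy_one_eq_univ, Nat.card_coe_set_eq, Set.ncard_univ, Subgroup.index]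

theorem inner_one [Fintype G] (H : Subgroup G) : classInner (pc H) 1 = 1 := by
  rw [classInner_def]
  have h := avg_fixedBy (G := G) (G ⧸ H)
  rw [card_orbits_of_pretransitive] at h
  simp only [pc, Pi.one_apply, map_one, mul_one]
  rw [h]
  norm_num

end perm

section dec

variable {G : Type u} [Group G] [Fintype G] [Fintype (IrrCharacter G)]

/-- the multiplicities -/
theorem exists_mult {π : G → ℂ} (h : IsCharacter G π) : ∃ m : IrrCharacter G → ℕ,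
    π = ∑ ψ : IrrCharacter G, m ψ • (ψ : G → ℂ) ∧ ∀ ψ : IrrCharacter G, classInner π ψ = m ψ := by
  obtain ⟨m, rfl⟩ := exists_nat_comb h
  exact ⟨m, rfl, fun ψ => classInner_sum_nsmul_irr m ψ⟩

theorem inner_mult (a b : IrrCharacter G → ℕ) :
    classInner (∑ ψ : IrrCharacter G, a ψ • (ψ : G → ℂ)) (∑ ψ : IrrCharacter G, b ψ • (ψ : G → ℂ)) =
      ((∑ ψ : IrrCharacter G, a ψ * b ψ : ℕ) : ℂ) := by
  have h2 := classInner_sum_smul_sum_smul (fun ψ : IrrCharacter G => (a ψ : ℂ)) (fun ψ => (b ψ : ℂ))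
  simp only [Nat.cast_smul_eq_nsmul] at h2
  rw [h2]
  push_cast
  exact Finset.sum_congr rfl fun ψ _ => by rw [Complex.conj_natCast]

/-- the decomposition of the three permutation characters -/
structure Dec (π₁ π₂ πB : G → ℂ) (I St s₁ s₂ r₁ r₂ : IrrCharacter G) : Prop where
  hI : (I : G → ℂ) = 1
  nodup : [I, St, s₁, s₂, r₁, r₂].Nodup
  e1 : ∀ g : G, π₁ g = 1 + ((s₁ : G → ℂ) g + ((r₁ : G → ℂ) g + (r₂ : G → ℂ) g))
  e2 : ∀ g : G, π₂ g = 1 + ((s₂ : G → ℂ) g + ((r₁ : G → ℂ) g + (r₂ : G → ℂ) g))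
  eB : ∀ g : G, πB g = 1 + ((St : G → ℂ) g + ((s₁ : G → ℂ) g + ((s₂ : G → ℂ) g +
    (2 * (r₁ : G → ℂ) g + 2 * (r₂ : G → ℂ) g))))
  m1I : classInner π₁ I = 1
  m1s : classInner π₁ s₁ = 1
  m1r₁ : classInner π₁ r₁ = 1
  m1r₂ : classInner π₁ r₂ = 1
  m1 : ∀ χ : IrrCharacter G, χ ≠ I → χ ≠ s₁ → χ ≠ r₁ → χ ≠ r₂ → classInner π₁ χ = 0
  m2I : classInner π₂ I = 1
  m2s : classInner π₂ s₂ = 1
  m2r₁ : classInner π₂ r₁ = 1
  m2r₂ : classInner π₂ r₂ = 1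
  m2 : ∀ χ : IrrCharacter G, χ ≠ I → χ ≠ s₂ → χ ≠ r₁ → χ ≠ r₂ → classInner π₂ χ = 0
  mBI : classInner πB I = 1
  mBSt : classInner πB St = 1
  mBs₁ : classInner πB s₁ = 1
  mBs₂ : classInner πB s₂ = 1
  mBr₁ : classInner πB r₁ = 2
  mBr₂ : classInner πB r₂ = 2
  mB : ∀ χ : IrrCharacter G, χ ≠ I → χ ≠ St → χ ≠ s₁ → χ ≠ s₂ → χ ≠ r₁ → χ ≠ r₂ → classInner πB χ = 0

/-- **The decomposition.** -/
theorem exists_dec {π₁ π₂ πB : G → ℂ} (c1 : IsCharacter G π₁) (c2 : IsCharacter G π₂) (cB : IsCharacter G πB)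
    (o1 : classInner π₁ 1 = 1) (o2 : classInner π₂ 1 = 1) (oB : classInner πB 1 = 1)
    (h11 : classInner π₁ π₁ = 4) (h22 : classInner π₂ π₂ = 4) (h12 : classInner π₁ π₂ = 3)
    (hBB : classInner πB πB = 12) (hB1 : classInner πB π₁ = 6) (hB2 : classInner πB π₂ = 6) :
    ∃ I St s₁ s₂ r₁ r₂ : IrrCharacter G, Dec π₁ π₂ πB I St s₁ s₂ r₁ r₂ := by
  classical
  obtain ⟨m₁, rfl, d1⟩ := exists_mult c1
  obtain ⟨m₂, rfl, d2⟩ := exists_mult c2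
  obtain ⟨mB, rfl, dB⟩ := exists_mult cB
  rw [inner_mult] at h11 h22 h12 hBB hB1 hB2
  obtain ⟨I, hI⟩ : ∃ I : IrrCharacter G, I = ⟨1, isIrr_one⟩ := ⟨_, rfl⟩
  have hIc : (I : G → ℂ) = 1 := by rw [hI]
  have i1 : m₁ I = 1 := by
    have h := d1 I
    rw [hIc, o1] at h
    exact_mod_cast h.symm
  have i2 : m₂ I = 1 := by
    have h := d2 I
    rw [hIc, o2] at h
    exact_mod_cast h.symm
  have iB : mB I = 1 := by
    have h := dB I
    rw [hIc, oB] at h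
    exact_mod_cast h.symm
  have k11 : ∑ ψ : IrrCharacter G, m₁ ψ ^ 2 = 4 := by
    simp only [pow_two]
    exact_mod_cast h11
  have k22 : ∑ ψ : IrrCharacter G, m₂ ψ ^ 2 = 4 := by
    simp only [pow_two]
    exact_mod_cast h22
  have kBB : ∑ ψ : IrrCharacter G, mB ψ ^ 2 = 12 := by
    simp only [pow_two]
    exact_mod_cast hBB
  have k12 : ∑ ψ : IrrCharacter G, m₁ ψ * m₂ ψ = 3 := by exact_mod_cast h12
  have kB1 : ∑ ψ : IrrCharacter G, mB ψ * m₁ ψ = 6 := by exact_mod_cast hB1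
  have kB2 : ∑ ψ : IrrCharacter G, mB ψ * m₂ ψ = 6 := by exact_mod_cast hB2
  obtain ⟨St, s₁, s₂, r₁, r₂, hnd, f1, f2, bSt, bs1, bs2, br1, br2, fB⟩ := comb i1 i2 iB k11 k22 k12 kBB kB1 kB2
  have hnd' := hnd
  simp only [List.nodup_cons, List.mem_cons, List.not_mem_nil, or_false, not_or, List.nodup_nil, not_false_eq_true,
    and_true] at hnd'
  obtain ⟨⟨n1, n2, n3, n4, n5⟩, ⟨n6, n7, n8, n9⟩, ⟨n10, n11, n12⟩, ⟨n13, n14⟩, n15⟩ := hnd'
  have ev : ∀ (m : IrrCharacter G → ℕ) (g : G), (∑ ψ : IrrCharacter G, m ψ • (ψ : G → ℂ)) g =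
      ∑ ψ : IrrCharacter G, (m ψ : ℂ) * (ψ : G → ℂ) g := fun m g => by
    rw [Finset.sum_apply]
    exact Finset.sum_congr rfl fun ψ _ => by rw [Pi.smul_apply, nsmul_eq_mul]
  refine ⟨I, St, s₁, s₂, r₁, r₂, hIc, hnd, fun g => ?_, fun g => ?_, fun g => ?_, ?_, ?_, ?_, ?_, ?_, ?_, ?_, ?_, ?_, ?_, ?_,
    ?_, ?_, ?_, ?_, ?_, ?_⟩
  · rw [ev, Finset.sum_congr rfl (fun ψ _ => by rw [f1 ψ, Nat.cast_ite, Nat.cast_one, Nat.cast_zero, ite_mul, one_mul, zero_mul]),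
      Finset.sum_ite_mem, Finset.univ_inter, Finset.sum_insert, Finset.sum_insert, Finset.sum_pair n15, hIc, Pi.one_apply]
    · simp [n11, n12]
    · simp [n2, n4, n5]
  · rw [ev, Finset.sum_congr rfl (fun ψ _ => by rw [f2 ψ, Nat.cast_ite, Nat.cast_one, Nat.cast_zero, ite_mul, one_mul, zero_mul]),
      Finset.sum_ite_mem, Finset.univ_inter, Finset.sum_insert, Finset.sum_insert, Finset.sum_pair n15, hIc, Pi.one_apply]
    · simp [n13, n14]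
    · simp [n3, n4, n5]
  · rw [ev]
    have h1 : ∑ ψ : IrrCharacter G, (mB ψ : ℂ) * (ψ : G → ℂ) g =
        ∑ ψ ∈ ({I, St, s₁, s₂, r₁, r₂} : Finset (IrrCharacter G)), (mB ψ : ℂ) * (ψ : G → ℂ) g := by
      symm
      apply Finset.sum_subset (Finset.subset_univ _)
      intro k _ hk
      rw [fB k hk, Nat.cast_zero, zero_mul]
    rw [h1, Finset.sum_insert, Finset.sum_insert, Finset.sum_insert, Finset.sum_insert, Finset.sum_pair n15, hIc, Pi.one_apply,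
      iB, bSt, bs1, bs2, br1, br2]
    · push_cast
      ring
    · simp [n13, n14]
    · simp [n10, n11, n12]
    · simp [n6, n7, n8, n9]
    · simp [n1, n2, n3, n4, n5]
  · rw [d1, f1]; simp
  · rw [d1, f1]; simp
  · rw [d1, f1]; simp
  · rw [d1, f1]; simp
  · intro χ a1 a2 a3 a4
    rw [d1, f1]
    simp [a1, a2, a3, a4]
  · rw [d2, f2]; simp
  · rw [d2, f2]; simp
  · rw [d2, f2]; simp
  · rw [d2, f2]; simp
  · intro χ a1 a2 a3 a4
    rw [d2, f2]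
    simp [a1, a2, a3, a4]
  · rw [dB, iB, Nat.cast_one]
  · rw [dB, bSt, Nat.cast_one]
  · rw [dB, bs1, Nat.cast_one]
  · rw [dB, bs2, Nat.cast_one]
  · rw [dB, br1]; norm_num
  · rw [dB, br2]; norm_num
  · intro χ a1 a2 a3 a4 a5 a6
    rw [dB, fB χ (by simp [a1, a2, a3, a4, a5, a6]), Nat.cast_zero]

/-- the multiplicities of the exceptional characters agree -/
theorem inner_exc {A : Subgroup G} {s e : ℕ} (D : CCData A s e) {π : G → ℂ} (hπ : IsCharacter G π)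
    (h0 : ∀ a ∈ A, a ≠ 1 → π a = 0) {ψ ψ' : IrrCharacter G} (h : ψ ∈ D.R) (h' : ψ' ∈ D.R) :
    classInner π ψ = classInner π ψ' := by
  classical
  rw [classInner_def, classInner_def]
  congr 1
  refine Finset.sum_congr rfl fun g _ => ?_
  by_cases hg : InConj A g
  · obtain ⟨a, ha, ha1, hc⟩ := hg
    obtain ⟨c, rfl⟩ := isConj_iff.1 hc
    have h1 : π (c * a * c⁻¹) = 0 := by
      rw [← h0 a ha ha1]
      exact isCharacter_isClassFunction hπ a c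
    rw [h1, zero_mul, zero_mul]
  · rw [D.agree ψ h ψ' h' g hg]

/-- the constituents of `π_B` are not exceptional -/
theorem not_exc {A : Subgroup G} {s e : ℕ} (D : CCData A s e) (hs : 7 ≤ s) {π₁ π₂ πB : G → ℂ}
    {I St s₁ s₂ r₁ r₂ : IrrCharacter G} (hd : Dec π₁ π₂ πB I St s₁ s₂ r₁ r₂) (hB : IsCharacter G πB)
    (h0 : ∀ a ∈ A, a ≠ 1 → πB a = 0) {ψ : IrrCharacter G} (h : classInner πB ψ ≠ 0) : ψ ∉ D.R := by
  classical
  intro hψ
  have h1 : D.R ⊆ ({I, St, s₁, s₂, r₁, r₂} : Finset (IrrCharacter G)) := by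
    intro χ hχ
    rw [inner_exc D hB h0 hψ hχ] at h
    by_contra hc
    simp only [Finset.mem_insert, Finset.mem_singleton, not_or] at hc
    exact h (hd.mB χ hc.1 hc.2.1 hc.2.2.1 hc.2.2.2.1 hc.2.2.2.2.1 hc.2.2.2.2.2)
  have h2 := Finset.card_le_card h1
  have h3 := Finset.card_le_six (a := I) (b := St) (c := s₁) (d := s₂) (e := r₁) (f := r₂)
  rw [D.hcard] at h2
  omega

/-- **The values at `x`.** -/
theorem values {A : Subgroup G} {s : ℕ} (D : CCData A s 4) (hs : 7 ≤ s) {π₁ π₂ πB : G → ℂ}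
    {I St s₁ s₂ r₁ r₂ : IrrCharacter G} (hd : Dec π₁ π₂ πB I St s₁ s₂ r₁ r₂) (hB : IsCharacter G πB)
    (h0 : ∀ a ∈ A, a ≠ 1 → π₁ a = 0 ∧ π₂ a = 0 ∧ πB a = 0) {x : G} (hx : x ∈ A) (hx1 : x ≠ 1) :
    (St : G → ℂ) x = 1 ∧ (((s₁ : G → ℂ) x = -1 ∧ (s₂ : G → ℂ) x = -1 ∧ (r₁ : G → ℂ) x = 0 ∧ (r₂ : G → ℂ) x = 0) ∨
      ((s₁ : G → ℂ) x = 0 ∧ (s₂ : G → ℂ) x = 0)) := by
  classical
  have hR : ∀ ψ : IrrCharacter G, classInner πB ψ ≠ 0 → ψ ∉ D.R := fun ψ h =>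
    not_exc D hs hd hB (fun a ha ha1 => (h0 a ha ha1).2.2) h
  have v : ∀ ψ : IrrCharacter G, classInner πB ψ ≠ 0 → (ψ : G → ℂ) x = D.f ψ := fun ψ h => D.hf ψ (hR ψ h) x hx hx1
  have vI := v I (by rw [hd.mBI]; norm_num)
  have vSt := v St (by rw [hd.mBSt]; norm_num)
  have vs1 := v s₁ (by rw [hd.mBs₁]; norm_num)
  have vs2 := v s₂ (by rw [hd.mBs₂]; norm_num)
  have vr1 := v r₁ (by rw [hd.mBr₁]; norm_num)
  have vr2 := v r₂ (by rw [hd.mBr₂]; norm_num)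
  obtain ⟨z1, z2, zB⟩ := h0 x hx hx1
  rw [hd.e1, vs1, vr1, vr2] at z1
  rw [hd.e2, vs2, vr1, vr2] at z2
  rw [hd.eB, vSt, vs1, vs2, vr1, vr2] at zB
  rw [hd.hI, Pi.one_apply] at vI
  have w1 : 1 + (D.f s₁ + (D.f r₁ + D.f r₂)) = 0 := by exact_mod_cast z1
  have w2 : 1 + (D.f s₂ + (D.f r₁ + D.f r₂)) = 0 := by exact_mod_cast z2
  have wB : 1 + (D.f St + (D.f s₁ + (D.f s₂ + (2 * D.f r₁ + 2 * D.f r₂)))) = 0 := by exact_mod_cast zB
  have wI : D.f I = 1 := by exact_mod_cast vI.symm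
  have hc0 : D.c = 0 := by
    have h := D.sq
    have h1 : 0 ≤ ∑ ψ : IrrCharacter G, D.f ψ ^ 2 := Finset.sum_nonneg fun _ _ => sq_nonneg _
    by_contra hc
    have h2 : 1 ≤ D.c ^ 2 := by
      have := sq_pos_of_pos (abs_pos.2 hc)
      rw [sq_abs] at this
      omega
    have h3 : 2 * D.ε * D.c ≤ 2 * D.c ^ 2 := by
      rcases D.hε with h | h <;> rw [h] <;> rcases lt_or_gt_of_ne hc with h4 | h4 <;> nlinarith
    have h4 : (7 : ℤ) ≤ s := by exact_mod_cast hs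
    push_cast at h
    nlinarith
  have hsq := D.sq
  rw [hc0] at hsq
  have hsq' : ∑ ψ : IrrCharacter G, D.f ψ ^ 2 = 4 := by push_cast at hsq; linarith
  have hnd' := hd.nodup
  simp only [List.nodup_cons, List.mem_cons, List.not_mem_nil, or_false, not_or, List.nodup_nil, not_false_eq_true,
    and_true] at hnd'
  obtain ⟨⟨n1, n2, n3, n4, n5⟩, ⟨n6, n7, n8, n9⟩, ⟨n10, n11, n12⟩, ⟨n13, n14⟩, n15⟩ := hnd'
  have hle : D.f I ^ 2 + (D.f St ^ 2 + (D.f s₁ ^ 2 + (D.f s₂ ^ 2 + (D.f r₁ ^ 2 + D.f r₂ ^ 2)))) ≤ 4 := by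
    rw [← hsq']
    have h1 : ∑ ψ ∈ ({I, St, s₁, s₂, r₁, r₂} : Finset (IrrCharacter G)), D.f ψ ^ 2 =
        D.f I ^ 2 + (D.f St ^ 2 + (D.f s₁ ^ 2 + (D.f s₂ ^ 2 + (D.f r₁ ^ 2 + D.f r₂ ^ 2)))) := by
      rw [Finset.sum_insert, Finset.sum_insert, Finset.sum_insert, Finset.sum_insert, Finset.sum_pair n15]
      · simp [n13, n14]
      · simp [n10, n11, n12]
      · simp [n6, n7, n8, n9]
      · simp [n1, n2, n3, n4, n5]
    rw [← h1]
    exact Finset.sum_le_sum_of_subset_of_nonneg (Finset.subset_univ _) fun _ _ _ => sq_nonneg _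
  have hSt : D.f St = 1 := by linarith
  have e12 : D.f s₂ = D.f s₁ := by linarith
  rw [wI, hSt, e12] at hle
  obtain ⟨a, ha⟩ : ∃ a, a = D.f s₁ := ⟨_, rfl⟩
  obtain ⟨b, hb⟩ : ∃ b, b = D.f r₁ := ⟨_, rfl⟩
  obtain ⟨c, hc⟩ : ∃ c, c = D.f r₂ := ⟨_, rfl⟩
  rw [← ha, ← hb, ← hc] at hle w1
  have hkey : (a = -1 ∧ b = 0 ∧ c = 0) ∨ a = 0 := by
    have h1 : a ≤ 1 := by nlinarith
    have h2 : -1 ≤ a := by nlinarith
    have h3 : a = -1 ∨ a = 0 ∨ a = 1 := by omega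
    rcases h3 with h3 | h3 | h3
    · left
      rw [h3] at hle
      have h4 : b ^ 2 ≤ 0 := by nlinarith
      have h5 : c ^ 2 ≤ 0 := by nlinarith
      exact ⟨h3, pow_eq_zero_iff (by norm_num) |>.1 (le_antisymm h4 (sq_nonneg _)),
        pow_eq_zero_iff (by norm_num) |>.1 (le_antisymm h5 (sq_nonneg _))⟩
    · exact Or.inr h3
    · exfalso
      rw [h3] at hle w1
      have h4 : b ^ 2 ≤ 0 := by nlinarith
      have h5 : c ^ 2 ≤ 0 := by nlinarith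
      have h6 : b = 0 := pow_eq_zero_iff (by norm_num) |>.1 (le_antisymm h4 (sq_nonneg _))
      have h7 : c = 0 := pow_eq_zero_iff (by norm_num) |>.1 (le_antisymm h5 (sq_nonneg _))
      rw [h6, h7] at w1
      omega
  refine ⟨by rw [vSt, hSt]; simp, ?_⟩
  rcases hkey with ⟨k1, k2, k3⟩ | k1
  · left
    rw [vs1, vs2, vr1, vr2, e12, ← ha, ← hb, ← hc, k1, k2, k3]
    simp
  · right
    rw [vs1, vs2, e12, ← ha, k1]
    simp

/-- **Main statement of this file.** -/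
theorem dec_main {P₁ P₂ B : Subgroup G} (h11 : classInner (pc P₁) (pc P₁) = 4) (h22 : classInner (pc P₂) (pc P₂) = 4)
    (h12 : classInner (pc P₁) (pc P₂) = 3) (hBB : classInner (pc B) (pc B) = 12) (hB1 : classInner (pc B) (pc P₁) = 6)
    (hB2 : classInner (pc B) (pc P₂) = 6) {A : Subgroup G} {s : ℕ} (D : CCData A s 4) (hs : 7 ≤ s)
    (hA : ∀ a ∈ A, a ≠ 1 → pc P₁ a = 0 ∧ pc P₂ a = 0 ∧ pc B a = 0) {x : G} (hx : x ∈ A) (hx1 : x ≠ 1) :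
    ∃ St s₁ s₂ : IrrCharacter G, (St : G → ℂ) ≠ 1 ∧ (St : G → ℂ) x = 1 ∧ classInner (pc B) St = 1 ∧
      classInner (pc P₁) St = 0 ∧ classInner (pc P₂) St = 0 ∧
      (∀ g : G, pc P₁ g - pc P₂ g = (s₁ : G → ℂ) g - (s₂ : G → ℂ) g) ∧
      charDegree (s₁ : G → ℂ) ≤ P₁.index ∧ charDegree (s₂ : G → ℂ) ≤ P₂.index ∧
      (((s₁ : G → ℂ) x = -1 ∧ (s₂ : G → ℂ) x = -1) ∨
        ∀ χ : IrrCharacter G, (χ : G → ℂ) x = 0 ∨ (χ : G → ℂ) = 1 ∨ χ = St ∨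
          (2 * classInner (pc P₁) χ = classInner (pc B) χ ∧ 2 * classInner (pc P₂) χ = classInner (pc B) χ)) := by
  classical
  obtain ⟨I, St, s₁, s₂, r₁, r₂, hd⟩ := exists_dec (pc_isCharacter P₁) (pc_isCharacter P₂) (pc_isCharacter B)
    (inner_one P₁) (inner_one P₂) (inner_one B) h11 h22 h12 hBB hB1 hB2
  obtain ⟨hSt, hv⟩ := values D hs hd (pc_isCharacter B) hA hx hx1
  have hnd' := hd.nodup
  simp only [List.nodup_cons, List.mem_cons, List.not_mem_nil, or_false, not_or, List.nodup_nil, not_false_eq_true,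
    and_true] at hnd'
  obtain ⟨⟨n1, n2, n3, n4, n5⟩, ⟨n6, n7, n8, n9⟩, ⟨n10, n11, n12⟩, ⟨n13, n14⟩, n15⟩ := hnd'
  have hle : ∀ (P : Subgroup G) (σ : IrrCharacter G),
      (∀ g : G, pc P g = 1 + ((σ : G → ℂ) g + ((r₁ : G → ℂ) g + (r₂ : G → ℂ) g))) →
      charDegree (σ : G → ℂ) ≤ P.index := by
    intro P σ h
    have h1 := h 1
    rw [pc_one, ← charDegree_irr, ← charDegree_irr, ← charDegree_irr] at h1
    have h2 : P.index = 1 + (charDegree (σ : G → ℂ) + (charDegree (r₁ : G → ℂ) + charDegree (r₂ : G → ℂ))) := by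
      exact_mod_cast h1
    omega
  refine ⟨St, s₁, s₂, fun h => n1 (Subtype.ext (by rw [h, hd.hI])), hSt, hd.mBSt,
    hd.m1 St (Ne.symm n1) n6 n8 n9, hd.m2 St (Ne.symm n1) n7 n8 n9, fun g => ?_, hle P₁ s₁ hd.e1, hle P₂ s₂ hd.e2, ?_⟩
  · rw [hd.e1, hd.e2]
    ring
  rcases hv with ⟨k1, k2, -, -⟩ | ⟨k1, k2⟩
  · exact Or.inl ⟨k1, k2⟩
  right
  intro χ
  by_cases cI : χ = I
  · right; left
    rw [cI, hd.hI]
  by_cases cS : χ = St
  · exact Or.inr (Or.inr (Or.inl cS))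
  by_cases c1 : χ = s₁
  · left
    rw [c1, k1]
  by_cases c2 : χ = s₂
  · left
    rw [c2, k2]
  right; right; right
  by_cases c3 : χ = r₁
  · rw [c3, hd.m1r₁, hd.m2r₁, hd.mBr₁]
    norm_num
  by_cases c4 : χ = r₂
  · rw [c4, hd.m1r₂, hd.m2r₂, hd.mBr₂]
    norm_num
  rw [hd.m1 χ cI c1 c3 c4, hd.m2 χ cI c2 c3 c4, hd.mB χ cI cS c1 c2 c3 c4]
  norm_num

/-- **The values at `x`, second form**: the fourth nonexceptional character. -/
theorem values_two {A : Subgroup G} {s : ℕ} (D : CCData A s 4) (hs : 7 ≤ s) {π₁ π₂ πB : G → ℂ}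
    {I St s₁ s₂ r₁ r₂ : IrrCharacter G} (hd : Dec π₁ π₂ πB I St s₁ s₂ r₁ r₂) (hB : IsCharacter G πB)
    (h0 : ∀ a ∈ A, a ≠ 1 → π₁ a = 0 ∧ π₂ a = 0 ∧ πB a = 0) {x : G} (hx : x ∈ A) (hx1 : x ≠ 1)
    (hs1 : (s₁ : G → ℂ) x = 0) : ∃ B₀ : IrrCharacter G, ∀ χ : IrrCharacter G, χ ∉ D.R → χ ≠ B₀ →
      χ ≠ I → χ ≠ St → χ ≠ s₁ → χ ≠ s₂ → χ ≠ r₁ → χ ≠ r₂ → (χ : G → ℂ) x = 0 := by
  classical
  have hR : ∀ ψ : IrrCharacter G, classInner πB ψ ≠ 0 → ψ ∉ D.R := fun ψ h =>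
    not_exc D hs hd hB (fun a ha ha1 => (h0 a ha ha1).2.2) h
  have v : ∀ ψ : IrrCharacter G, classInner πB ψ ≠ 0 → (ψ : G → ℂ) x = D.f ψ := fun ψ h => D.hf ψ (hR ψ h) x hx hx1
  have vI := v I (by rw [hd.mBI]; norm_num)
  have vSt := v St (by rw [hd.mBSt]; norm_num)
  have vs1 := v s₁ (by rw [hd.mBs₁]; norm_num)
  have vs2 := v s₂ (by rw [hd.mBs₂]; norm_num)
  have vr1 := v r₁ (by rw [hd.mBr₁]; norm_num)
  have vr2 := v r₂ (by rw [hd.mBr₂]; norm_num)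
  obtain ⟨z1, z2, zB⟩ := h0 x hx hx1
  rw [hd.e1, vs1, vr1, vr2] at z1
  rw [hd.e2, vs2, vr1, vr2] at z2
  rw [hd.eB, vSt, vs1, vs2, vr1, vr2] at zB
  rw [hd.hI, Pi.one_apply] at vI
  have w0 : D.f s₁ = 0 := by
    rw [vs1] at hs1
    exact_mod_cast hs1
  have w1 : 1 + (D.f s₁ + (D.f r₁ + D.f r₂)) = 0 := by exact_mod_cast z1
  have w2 : 1 + (D.f s₂ + (D.f r₁ + D.f r₂)) = 0 := by exact_mod_cast z2
  have wB : 1 + (D.f St + (D.f s₁ + (D.f s₂ + (2 * D.f r₁ + 2 * D.f r₂)))) = 0 := by exact_mod_cast zB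
  have wI : D.f I = 1 := by exact_mod_cast vI.symm
  have hc0 : D.c = 0 := by
    have h := D.sq
    have h1 : 0 ≤ ∑ ψ : IrrCharacter G, D.f ψ ^ 2 := Finset.sum_nonneg fun _ _ => sq_nonneg _
    by_contra hc
    have h2 : 1 ≤ D.c ^ 2 := by
      have := sq_pos_of_pos (abs_pos.2 hc)
      rw [sq_abs] at this
      omega
    have h3 : 2 * D.ε * D.c ≤ 2 * D.c ^ 2 := by
      rcases D.hε with h | h <;> rw [h] <;> rcases lt_or_gt_of_ne hc with h4 | h4 <;> nlinarith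
    have h4 : (7 : ℤ) ≤ s := by exact_mod_cast hs
    push_cast at h
    nlinarith
  have hsq := D.sq
  rw [hc0] at hsq
  have hsq' : ∑ ψ : IrrCharacter G, D.f ψ ^ 2 = 4 := by push_cast at hsq; linarith
  have hnd' := hd.nodup
  simp only [List.nodup_cons, List.mem_cons, List.not_mem_nil, or_false, not_or, List.nodup_nil, not_false_eq_true,
    and_true] at hnd'
  obtain ⟨⟨n1, n2, n3, n4, n5⟩, ⟨n6, n7, n8, n9⟩, ⟨n10, n11, n12⟩, ⟨n13, n14⟩, n15⟩ := hnd'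
  obtain ⟨U, hU⟩ : ∃ U : Finset (IrrCharacter G), U = {I, St, s₁, s₂, r₁, r₂} := ⟨_, rfl⟩
  have h6 : ∑ ψ ∈ U, D.f ψ ^ 2 =
      D.f I ^ 2 + (D.f St ^ 2 + (D.f s₁ ^ 2 + (D.f s₂ ^ 2 + (D.f r₁ ^ 2 + D.f r₂ ^ 2)))) := by
    rw [hU, Finset.sum_insert, Finset.sum_insert, Finset.sum_insert, Finset.sum_insert, Finset.sum_pair n15]
    · simp [n13, n14]
    · simp [n10, n11, n12]
    · simp [n6, n7, n8, n9]
    · simp [n1, n2, n3, n4, n5]
  have hSt : D.f St = 1 := by linarith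
  have e2 : D.f s₂ = 0 := by linarith
  have hsplit := Finset.sum_add_sum_compl U (fun ψ => D.f ψ ^ 2)
  rw [hsq', h6, wI, hSt, w0, e2] at hsplit
  obtain ⟨b, hb⟩ : ∃ b, b = D.f r₁ := ⟨_, rfl⟩
  obtain ⟨c, hc⟩ : ∃ c, c = D.f r₂ := ⟨_, rfl⟩
  rw [← hb, ← hc] at hsplit w1
  have hnn : 0 ≤ ∑ ψ ∈ Uᶜ, D.f ψ ^ 2 := Finset.sum_nonneg fun _ _ => sq_nonneg _
  have hone : ∑ ψ ∈ Uᶜ, D.f ψ ^ 2 = 1 := by
    have hc' : c = -1 - b := by omega
    subst hc'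
    have h1 : b ≤ 1 := by nlinarith
    have h2 : -2 ≤ b := by nlinarith
    have h3 : b = -2 ∨ b = -1 ∨ b = 0 ∨ b = 1 := by omega
    rcases h3 with h3 | h3 | h3 | h3 <;> rw [h3] at hsplit <;> linarith
  have hone' : ∑ ψ ∈ Uᶜ, (D.f ψ).natAbs ^ 2 = 1 := by
    have h1 : ((∑ ψ ∈ Uᶜ, (D.f ψ).natAbs ^ 2 : ℕ) : ℤ) = ∑ ψ ∈ Uᶜ, D.f ψ ^ 2 := by
      push_cast
      exact Finset.sum_congr rfl fun ψ _ => sq_abs _
    rw [hone] at h1
    exact_mod_cast h1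
  obtain ⟨B₀, -, -, hB₀⟩ := one_sq hone'
  refine ⟨B₀, fun χ hχ hne a1 a2 a3 a4 a5 a6 => ?_⟩
  have h1 : χ ∈ Uᶜ := by
    rw [Finset.mem_compl, hU]
    simp [a1, a2, a3, a4, a5, a6]
  rw [D.hf χ hχ x hx hx1, Int.natAbs_eq_zero.1 (hB₀ χ h1 hne), Int.cast_zero]

/-- **Main statement of this file, final form** (with the fourth nonexceptional character `B₀`). -/
theorem dec_fin {P₁ P₂ B : Subgroup G} (h11 : classInner (pc P₁) (pc P₁) = 4) (h22 : classInner (pc P₂) (pc P₂) = 4)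
    (h12 : classInner (pc P₁) (pc P₂) = 3) (hBB : classInner (pc B) (pc B) = 12) (hB1 : classInner (pc B) (pc P₁) = 6)
    (hB2 : classInner (pc B) (pc P₂) = 6) {A : Subgroup G} {s : ℕ} (D : CCData A s 4) (hs : 7 ≤ s)
    (hA : ∀ a ∈ A, a ≠ 1 → pc P₁ a = 0 ∧ pc P₂ a = 0 ∧ pc B a = 0) {x : G} (hx : x ∈ A) (hx1 : x ≠ 1) :
    ∃ St s₁ s₂ : IrrCharacter G, (St : G → ℂ) ≠ 1 ∧ (St : G → ℂ) x = 1 ∧ classInner (pc B) St = 1 ∧
      classInner (pc P₁) St = 0 ∧ classInner (pc P₂) St = 0 ∧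
      (∀ g : G, pc P₁ g - pc P₂ g = (s₁ : G → ℂ) g - (s₂ : G → ℂ) g) ∧
      charDegree (s₁ : G → ℂ) ≤ P₁.index ∧ charDegree (s₂ : G → ℂ) ≤ P₂.index ∧ s₁ ∉ D.R ∧ s₂ ∉ D.R ∧
      (((s₁ : G → ℂ) x = -1 ∧ (s₂ : G → ℂ) x = -1) ∨
        ∃ B₀ : IrrCharacter G, ∀ χ : IrrCharacter G,
          (χ : G → ℂ) x = 0 ∨ (χ : G → ℂ) = 1 ∨ χ = St ∨ χ = B₀ ∨ χ ∈ D.R ∨
            (classInner (pc B) χ ≠ 0 ∧ 2 * classInner (pc P₁) χ = classInner (pc B) χ ∧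
              2 * classInner (pc P₂) χ = classInner (pc B) χ)) := by
  classical
  obtain ⟨I, St, s₁, s₂, r₁, r₂, hd⟩ := exists_dec (pc_isCharacter P₁) (pc_isCharacter P₂) (pc_isCharacter B)
    (inner_one P₁) (inner_one P₂) (inner_one B) h11 h22 h12 hBB hB1 hB2
  obtain ⟨hSt, hv⟩ := values D hs hd (pc_isCharacter B) hA hx hx1
  have hR : ∀ ψ : IrrCharacter G, classInner (pc B) ψ ≠ 0 → ψ ∉ D.R := fun ψ h =>
    not_exc D hs hd (pc_isCharacter B) (fun a ha ha1 => (hA a ha ha1).2.2) h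
  have hnd' := hd.nodup
  simp only [List.nodup_cons, List.mem_cons, List.not_mem_nil, or_false, not_or, List.nodup_nil, not_false_eq_true,
    and_true] at hnd'
  obtain ⟨⟨n1, n2, n3, n4, n5⟩, ⟨n6, n7, n8, n9⟩, ⟨n10, n11, n12⟩, ⟨n13, n14⟩, n15⟩ := hnd'
  have hle : ∀ (P : Subgroup G) (σ : IrrCharacter G),
      (∀ g : G, pc P g = 1 + ((σ : G → ℂ) g + ((r₁ : G → ℂ) g + (r₂ : G → ℂ) g))) →
      charDegree (σ : G → ℂ) ≤ P.index := by
    intro P σ h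
    have h1 := h 1
    rw [pc_one, ← charDegree_irr, ← charDegree_irr, ← charDegree_irr] at h1
    have h2 : P.index = 1 + (charDegree (σ : G → ℂ) + (charDegree (r₁ : G → ℂ) + charDegree (r₂ : G → ℂ))) := by
      exact_mod_cast h1
    omega
  refine ⟨St, s₁, s₂, fun h => n1 (Subtype.ext (by rw [h, hd.hI])), hSt, hd.mBSt,
    hd.m1 St (Ne.symm n1) n6 n8 n9, hd.m2 St (Ne.symm n1) n7 n8 n9, fun g => ?_, hle P₁ s₁ hd.e1, hle P₂ s₂ hd.e2,
    hR s₁ (by rw [hd.mBs₁]; norm_num), hR s₂ (by rw [hd.mBs₂]; norm_num), ?_⟩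
  · rw [hd.e1, hd.e2]
    ring
  rcases hv with ⟨k1, k2, -, -⟩ | ⟨k1, k2⟩
  · exact Or.inl ⟨k1, k2⟩
  right
  obtain ⟨B₀, hB₀⟩ := values_two D hs hd (pc_isCharacter B) hA hx hx1 k1
  refine ⟨B₀, fun χ => ?_⟩
  by_cases cI : χ = I
  · right; left
    rw [cI, hd.hI]
  by_cases cS : χ = St
  · exact Or.inr (Or.inr (Or.inl cS))
  by_cases c0 : χ = B₀
  · exact Or.inr (Or.inr (Or.inr (Or.inl c0)))
  by_cases cR : χ ∈ D.R
  · exact Or.inr (Or.inr (Or.inr (Or.inr (Or.inl cR))))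
  by_cases c1 : χ = s₁
  · left
    rw [c1, k1]
  by_cases c2 : χ = s₂
  · left
    rw [c2, k2]
  by_cases c3 : χ = r₁
  · right; right; right; right; right
    rw [c3, hd.m1r₁, hd.m2r₁, hd.mBr₁]
    norm_num
  by_cases c4 : χ = r₂
  · right; right; right; right; right
    rw [c4, hd.m1r₂, hd.m2r₂, hd.mBr₂]
    norm_num
  exact Or.inl (hB₀ χ cR c0 cI cS c1 c2 c3 c4)

end dec

end Cfsg.Agent.H453.TW
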