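import Cfsg.Agent.H554.TW.HC2
import Cfsg.Agent.H678.CCData

/-!
# The exceptional characters at elliptic elements of maximal parabolic subgroups (S2452, helper453)
-/

set_option autoImplicit false
set_option linter.unusedSectionVars false

open scoped ComplexConjugate Pointwise
open Cfsg

namespace Cfsg.Agent.H453.TW

open Cfsg.Agent.OddOrderCharacters.Clifford Cfsg.Agent.Characters Cfsg.Agent.H53.HC Cfsg.Agent.H641.Gow
open Cfsg.Agent.H45.GG
open CoxeterSystem Cfsg.Agent.ChevalleyStructure.CoxeterGeom Cfsg.Agent.Tits.Roots Cfsg.Agent.Tits.Core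
  Cfsg.Agent.Tits.Exchange Cfsg.Agent.Nodes.Reps Cfsg.Agent.Nodes.BNOf Cfsg.Agent.Nodes.StabComb
  Cfsg.Agent.Nodes.Bruhat Cfsg.Agent.Nodes.OppDec Cfsg.Agent.Nodes.LeviDec
open Cfsg.Agent.H678.CCExact Cfsg.Agent.Characters.CCCounting

variable {I W Y : Type*} [Fintype I] [DecidableEq I] [Group W] [Group Y] {M : CoxeterMatrix I}
  {cs : CoxeterSystem M W} {A : I → I → ℤ} {h : IsCartan M A} {p : ℕ} {T : Subgroup Y} {n : I → Y}
  {X : (I → ℤ) → Subgroup Y} (R : RGD cs h p T n X)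

include R

/-- **The exceptional characters vanish at `y`.** -/
theorem exc_frame [Finite W] [Fintype Y] (hG : GG cs h T X = ⊤) [Fintype (IrrCharacter Y)] {S : Subgroup Y} {s e : ℕ}
    (D : CCData S s e) (hs : Nat.card W < s)
    (hAP : ∀ J : Set I, J ≠ Set.univ → ∀ a ∈ S, a ≠ 1 → ∀ g : Y, g⁻¹ * a * g ∉ PJ cs h T X J)
    {K : Set I} (hK : K ≠ Set.univ) {y : Y} (hy : y ∈ PJ cs h T X K)
    (hf : ∀ v ∈ VJ cs h X K, y * v * y⁻¹ = v → v = 1) : ∀ ψ ∈ D.R, (ψ : Y → ℂ) y = 0 := by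
  classical
  intro ψ hψ
  refine Cfsg.Agent.H554.TW.exc_zero R hG (ι := {χ : IrrCharacter Y // χ ∈ D.R}) (E := fun j => (j.1 : Y → ℂ)) (fun j => j.1.2)
    (fun a b hab => Subtype.ext (Subtype.ext hab)) (fun J hJ g hg j j' => ?_) ?_ hK hy hf ⟨ψ, hψ⟩
  · refine D.agree j.1 j.2 j'.1 j'.2 g ?_
    rintro ⟨a, ha, ha1, hc⟩
    obtain ⟨c, rfl⟩ := isConj_iff.1 hc
    apply hAP J hJ a ha ha1 c⁻¹
    rwa [inv_inv]
  · rw [Fintype.card_coe, D.hcard]
    exact hs

omit R [Fintype I] [DecidableEq I] in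
theorem sub_single {J : Set (Fin 2)} (hJ : J ≠ Set.univ) : ∃ i : Fin 2, J ⊆ {i} := by
  by_cases h0 : (0 : Fin 2) ∈ J
  · refine ⟨0, fun k hk => ?_⟩
    fin_cases k
    · rfl
    · exfalso
      apply hJ
      ext m
      fin_cases m
      · simpa using h0
      · simpa using hk
  · refine ⟨1, fun k hk => ?_⟩
    fin_cases k
    · exact absurd hk h0
    · rfl

end Cfsg.Agent.H453.TW
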