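import Cfsg.Agent.H453.TW.Dec
import Cfsg.Agent.H727.TW.Fin
import Cfsg.Agent.H877.TW.KillA

/-!
# Line B of `³D₄(q)` for S2452: the abstract assembly (helper453)
-/

set_option autoImplicit false

open scoped ComplexConjugate
open Cfsg Subgroup

namespace Cfsg.Agent.H453.TW

open Cfsg.Agent.Characters Cfsg.Agent.Characters.Core Cfsg.Agent.H678.CCExact Cfsg.Agent.H686.CharKit
  Cfsg.Agent.Characters.CCCounting Cfsg.Agent.Characters.CCBasic Cfsg.Agent.Characters.CCEstimates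

universe u

/-- **The abstract assembly.** -/
theorem glue {G : Type u} [Group G] [Fintype G] {p q f : ℕ} [hp : Fact p.Prime] (hG : IsLieTypeChar p G)
    (hK : Cfsg.Agent.H730.OZ.Kaw p G) {A : Subgroup G} (hA : IsCC A) (hlen : len A = 4) (hq : q = p ^ f) (hf : 0 < f)
    (hq3 : 3 < q) (hN : (Nat.card A : ℤ) = (q : ℤ) ^ 4 - q ^ 2 + 1) (hfac : (Nat.card G).factorization p = 12 * f)
    {P₁ P₂ B : Subgroup G} (h11 : classInner (pc P₁) (pc P₁) = 4) (h22 : classInner (pc P₂) (pc P₂) = 4)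
    (h12 : classInner (pc P₁) (pc P₂) = 3) (hBB : classInner (pc B) (pc B) = 12) (hB1 : classInner (pc B) (pc P₁) = 6)
    (hB2 : classInner (pc B) (pc P₂) = 6)
    (i1 : P₁.index = (q ^ 8 + q ^ 4 + 1) * (q ^ 3 + 1)) (i2 : P₂.index = (q ^ 8 + q ^ 4 + 1) * (q + 1))
    (n1 : (Cfsg.Agent.H730.OZ.pSet p G ∩ (P₁ : Set G)).ncard = q ^ 13)
    (n2 : (Cfsg.Agent.H730.OZ.pSet p G ∩ (P₂ : Set G)).ncard = q ^ 15)
    (hAP : ∀ a ∈ A, a ≠ 1 → ∀ g : G, g⁻¹ * a * g ∉ P₁ ∧ g⁻¹ * a * g ∉ P₂ ∧ g⁻¹ * a * g ∉ B)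
    {x : G} (hx : x ∈ A) (hxp : (orderOf x).Prime) (hcx : ¬ p ∣ Nat.card (centralizer ({x} : Set G)))
    {y : G} {s₁ s₂ : ℕ} (h₁ : s₁.Prime) (h₂ : s₂.Prime) (h₁₂ : s₁ ≠ s₂) (hy : orderOf y = s₁ * s₂)
    (hpy : ¬ p ∣ orderOf y) {P : Subgroup G} (hP : P = P₁ ∨ P = P₂)
    (hc1 : ∀ χ : IrrCharacter G, classInner (pc B) χ ≠ 0 →
      (χ : G → ℂ) y = 2 * classInner (pc P) χ - classInner (pc B) χ)
    (hc2 : ∀ [Fintype (IrrCharacter G)] (s : ℕ) (D : CCData A s 4), 12 < s → ∀ ψ ∈ D.R, (ψ : G → ℂ) y = 0) :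
    H588.TW.T52 G := by
  classical
  have hfin := finite_irr (G := G)
  have : Fintype (IrrCharacter G) := Fintype.ofFinite _
  have hx1 : x ≠ 1 := by
    rintro rfl
    rw [orderOf_one] at hxp
    exact Nat.not_prime_one hxp
  have hq4 : (4 : ℤ) ≤ q := by exact_mod_cast hq3
  have hcard : (241 : ℤ) ≤ Nat.card A := by
    rw [hN]
    nlinarith [mul_nonneg (by linarith : (0 : ℤ) ≤ (q : ℤ) - 4) (by positivity : (0 : ℤ) ≤ (q : ℤ) ^ 3),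
      mul_nonneg (by linarith : (0 : ℤ) ≤ (q : ℤ) - 4) (by positivity : (0 : ℤ) ≤ (q : ℤ) ^ 2),
      mul_nonneg (by linarith : (0 : ℤ) ≤ (q : ℤ) - 4) (by positivity : (0 : ℤ) ≤ (q : ℤ))]
  obtain ⟨s, hs⟩ : ∃ s, s * 4 + 1 = Nat.card A := by
    have h4 : (4 : ℤ) ∣ (q : ℤ) ^ 4 - q ^ 2 := by
      have h5 : (q : ℤ) ^ 4 - q ^ 2 = (q * (q - 1)) * (q * (q + 1)) := by ring
      rw [h5]
      have h6 : (2 : ℤ) ∣ q * (q - 1) := by
        rcases Int.even_or_odd (q : ℤ) with ⟨k, hk⟩ | ⟨k, hk⟩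
        · exact ⟨k * (q - 1), by rw [hk]; ring⟩
        · exact ⟨q * k, by rw [hk]; ring⟩
      have h7 : (2 : ℤ) ∣ q * (q + 1) := by
        rcases Int.even_or_odd (q : ℤ) with ⟨k, hk⟩ | ⟨k, hk⟩
        · exact ⟨k * (q + 1), by rw [hk]; ring⟩
        · exact ⟨q * (k + 1), by rw [hk]; ring⟩
      exact mul_dvd_mul h6 h7
    obtain ⟨k, hk⟩ := h4
    refine ⟨k.toNat, ?_⟩
    omega
  have hs12 : 12 < s := by omega
  obtain ⟨D⟩ := nonempty_ccData hA hlen hs (by omega : 2 ≤ s)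
  obtain ⟨St, t₁, t₂, hSt1, hStx, b1, b2, b3, hd, hle, -, hr1, hr2, hcase⟩ := dec_fin h11 h22 h12 hBB hB1 hB2 D (by omega)
    (fun a ha ha1 => ⟨pc_zero fun g => (hAP a ha ha1 g).1, pc_zero fun g => (hAP a ha ha1 g).2.1,
      pc_zero fun g => (hAP a ha ha1 g).2.2⟩) hx hx1
  rcases hcase with ⟨k1, k2⟩ | ⟨B₀, hB₀⟩
  · exact (Cfsg.Agent.H877.TW.kill_a hK hA hq hf hN hfac i1 i2 n1 n2 t₁ t₂ hd hle D hx hx1 hr1 hr2 k1 k2).elim
  have hSty : (St : G → ℂ) y = -1 := by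
    rw [hc1 St (by rw [b1]; norm_num), b1]
    rcases hP with rfl | rfl
    · rw [b2]; norm_num
    · rw [b3]; norm_num
  refine Cfsg.Agent.H727.TW.t52_of_zfin hp.out hG hxp h₁ h₂ h₁₂ hy hcx hpy St B₀ hSt1 hStx hSty fun χ => ?_
  rcases hB₀ χ with h | h | h | h | h | ⟨h3, h4, h5⟩
  · exact Or.inl h
  · exact Or.inr (Or.inr (Or.inl h))
  · exact Or.inr (Or.inr (Or.inr (Or.inl h)))
  · exact Or.inr (Or.inr (Or.inr (Or.inr h)))
  · exact Or.inr (Or.inl (hc2 s D hs12 χ h))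
  · right; left
    rw [hc1 χ h3]
    rcases hP with rfl | rfl
    · rw [h4, sub_self]
    · rw [h5, sub_self]

end Cfsg.Agent.H453.TW
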